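import Cfsg.Agent.Lib.Helper73.UP.Defs

set_option autoImplicit false

/-! Project UP (S3575), package ARITH: the interval-covering condition in closed form. -/

namespace Cfsg.Agent.Lib.Helper13.UP

open Cfsg.Agent.Lib.Helper73.UP

theorem arith_core (r q l T k : ℕ) (hr : 2 ≤ r) (hl : l < r) (hk : k < r)
    (ha : 2 ≤ q * r + l) (hb : 2 ≤ T * r + k) (hrab : r ≤ (q * r + l) * (T * r + k)) :
    (∀ j : ℕ, 1 ≤ j → j * r ≤ (q * r + l) * (T * r + k) →
        ∃ t : ℕ, t * r ≤ T * r + k ∧ t * (q * r + l) ≤ j ∧ j ≤ (T * r + k) * q + t * l) ↔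
      (1 ≤ q ∧ k * l < r ∧ (T = 0 ∨ l ≤ k * q + 1)) := by
  have key : (q * r + l) * (T * r + k) = ((T * r + k) * q + T * l) * r + k * l := by ring
  constructor
  · intro h
    have hq : 1 ≤ q := by
      obtain ⟨t, h1, h2, h3⟩ := h 1 le_rfl (by simpa using hrab)
      have ht : t = 0 := by
        by_contra hne
        have h1t : 1 ≤ t := Nat.one_le_iff_ne_zero.mpr hne
        have : 1 * (q * r + l) ≤ t * (q * r + l) := Nat.mul_le_mul_right _ h1t
        omega
      subst ht
      by_contra hq0
      have hq00 : q = 0 := by omega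
      subst hq00
      simp at h3
    have hkl : k * l < r := by
      by_contra hge
      push_neg at hge
      obtain ⟨t, h1, h2, h3⟩ := h ((T * r + k) * q + T * l + 1) (by omega) (by
        rw [key]
        have : ((T * r + k) * q + T * l + 1) * r = ((T * r + k) * q + T * l) * r + r := by ring
        omega)
      have htT : t ≤ T := by
        by_contra hlt
        push_neg at hlt
        have : (T + 1) * r ≤ t * r := Nat.mul_le_mul_right r hlt
        have : (T + 1) * r = T * r + r := by ring
        omega
      have : t * l ≤ T * l := Nat.mul_le_mul_right l htT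
      omega
    refine ⟨hq, hkl, ?_⟩
    by_cases hT : T = 0
    · exact Or.inl hT
    · right
      have hT1 : 1 ≤ T := Nat.one_le_iff_ne_zero.mpr hT
      have hTa : 2 ≤ T * (q * r + l) := by
        have : 1 * (q * r + l) ≤ T * (q * r + l) := Nat.mul_le_mul_right _ hT1
        omega
      obtain ⟨t, h1, h2, h3⟩ := h (T * (q * r + l) - 1) (by omega) (by
        have h4 : (T * (q * r + l) - 1) * r ≤ T * (q * r + l) * r :=
          Nat.mul_le_mul_right r (Nat.sub_le _ _)
        have h5 : T * (q * r + l) * r ≤ (q * r + l) * (T * r + k) := by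
          have : (q * r + l) * (T * r + k) = T * (q * r + l) * r + (q * r + l) * k := by ring
          omega
        omega)
      have htT : t + 1 ≤ T := by
        by_contra hlt
        push_neg at hlt
        have hTt : T ≤ t := by omega
        have : T * (q * r + l) ≤ t * (q * r + l) := Nat.mul_le_mul_right _ hTt
        omega
      obtain ⟨s, rfl⟩ : ∃ s, T = s + 1 := ⟨T - 1, by omega⟩
      have hts : t ≤ s := by omega
      have : t * l ≤ s * l := Nat.mul_le_mul_right l hts
      have e1 : (s + 1) * (q * r + l) = (s + 1) * r * q + s * l + l := by ring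
      have e2 : ((s + 1) * r + k) * q = (s + 1) * r * q + k * q := by ring
      omega
  · rintro ⟨hq, hkl, hC2⟩ j hj1 hjr
    by_cases hcase : T ≤ j / (q * r + l)
    · refine ⟨T, by omega, ?_, ?_⟩
      · calc T * (q * r + l) ≤ j / (q * r + l) * (q * r + l) := Nat.mul_le_mul_right _ hcase
          _ ≤ j := Nat.div_mul_le_self _ _
      · by_contra hlt
        push_neg at hlt
        have h4 : ((T * r + k) * q + T * l + 1) * r ≤ j * r := Nat.mul_le_mul_right r hlt
        have h5 : ((T * r + k) * q + T * l + 1) * r = ((T * r + k) * q + T * l) * r + r := by ring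
        omega
    · push_neg at hcase
      obtain ⟨t, ht⟩ : ∃ t, t = j / (q * r + l) := ⟨_, rfl⟩
      rw [← ht] at hcase
      have hpos : 0 < q * r + l := by omega
      have hta : t * (q * r + l) ≤ j := by rw [ht]; exact Nat.div_mul_le_self _ _
      have hjlt : j < (t + 1) * (q * r + l) := by
        have h6 := Nat.div_add_mod j (q * r + l)
        have h7 := Nat.mod_lt j hpos
        rw [← ht] at h6
        have : (t + 1) * (q * r + l) = (q * r + l) * t + (q * r + l) := by ring
        omega
      refine ⟨t, ?_, hta, ?_⟩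
      · have : t * r ≤ T * r := Nat.mul_le_mul_right r hcase.le
        omega
      · have e1 : (t + 1) * (q * r + l) = (t + 1) * r * q + t * l + l := by ring
        have e2 : (T * r + k) * q = T * r * q + k * q := by ring
        rcases Nat.lt_or_ge (t + 1) T with h8 | h8
        · have h9 : (t + 2) * r * q ≤ T * r * q :=
            Nat.mul_le_mul_right q (Nat.mul_le_mul_right r h8)
          have h10 : (t + 2) * r * q = (t + 1) * r * q + r * q := by ring
          have h11 : r * 1 ≤ r * q := Nat.mul_le_mul_left r hq
          omega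
        · have hT : T = t + 1 := by omega
          subst hT
          rcases hC2 with h12 | h12
          · omega
          · omega

theorem lemArith : LemArith := by
  intro a b r ha hb hr hrab
  have hr2 : 2 ≤ r := hr.two_le
  have hr0 : 0 < r := by omega
  obtain ⟨q, hq⟩ : ∃ q, q = a / r := ⟨_, rfl⟩
  obtain ⟨l, hl⟩ : ∃ l, l = a % r := ⟨_, rfl⟩
  obtain ⟨T, hT⟩ : ∃ T, T = b / r := ⟨_, rfl⟩
  obtain ⟨k, hk⟩ : ∃ k, k = b % r := ⟨_, rfl⟩
  have hlr : l < r := by rw [hl]; exact Nat.mod_lt _ hr0
  have hkr : k < r := by rw [hk]; exact Nat.mod_lt _ hr0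
  have hae : a = q * r + l := by
    have := Nat.div_add_mod a r
    rw [hq, hl, Nat.mul_comm]; omega
  have hbe : b = T * r + k := by
    have := Nat.div_add_mod b r
    rw [hT, hk, Nat.mul_comm]; omega
  rw [← hq, ← hl, ← hk]
  have hcore := arith_core r q l T k hr2 hlr hkr (hae ▸ ha) (hbe ▸ hb) (by rw [← hae, ← hbe]; exact hrab)
  rw [← hae, ← hbe] at hcore
  rw [hcore]
  have hqa : r ≤ a ↔ 1 ≤ q := by
    constructor
    · intro h
      by_contra h0
      have : q = 0 := by omega
      subst this
      omega
    · intro h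
      have : 1 * r ≤ q * r := Nat.mul_le_mul_right r h
      omega
  have hTb : b < r ↔ T = 0 := by
    constructor
    · intro h
      by_contra h0
      have h1 : 1 ≤ T := Nat.one_le_iff_ne_zero.mpr h0
      have : 1 * r ≤ T * r := Nat.mul_le_mul_right r h1
      omega
    · intro h
      subst h
      omega
  have hC : (k + r) * l ≤ k * a + r ↔ l ≤ k * q + 1 := by
    have e1 : (k + r) * l = k * l + r * l := by ring
    have e2 : k * a + r = k * l + r * (k * q + 1) := by rw [hae]; ring
    rw [e1, e2]
    constructor
    · intro h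
      have : r * l ≤ r * (k * q + 1) := by omega
      exact Nat.le_of_mul_le_mul_left this hr0
    · intro h
      have : r * l ≤ r * (k * q + 1) := Nat.mul_le_mul_left r h
      omega
  rw [hqa, hTb, hC]
  constructor
  · rintro ⟨h1, h2, h3⟩
    refine ⟨h1, ?_⟩
    by_cases hl0 : l = 0
    · exact Or.inl hl0
    · by_cases hk0 : k = 0
      · right; left
        refine ⟨hk0, ?_⟩
        subst hk0
        rcases h3 with h3 | h3
        · subst h3; omega
        · simp at h3; omega
      · right; right
        exact ⟨hl0, hk0, h2, h3⟩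
  · rintro ⟨h1, h2 | ⟨h2, h3⟩ | ⟨h2, h3, h4, h5⟩⟩
    · subst h2
      refine ⟨h1, by simpa using hr0, Or.inr (by omega)⟩
    · subst h2
      refine ⟨h1, by simpa using hr0, Or.inr (by omega)⟩
    · exact ⟨h1, h4, h5⟩

example : LemArith := lemArith

end Cfsg.Agent.Lib.Helper13.UP
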